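import Cfsg.Agent.H93.RC.Defs
import Cfsg.Agent.H106.RC.Descent
import Cfsg.Agent.ClassicalGeometry.TwoFamilies

/-!
# S3510, row F, BOX F4: a common nonsingular eigenvector in odd dimension

The group generated by the commuting lifts is cyclic modulo scalars, generated by one semisimilitude `Y`.
`Z`, `L` are powers of `Y`: `Z` has the field automorphism `σ` of `Y` and `Z ^ |σ|` is a scalar, `L` is linear and `L ^ m`
is a scalar, `p ∤ m`.  `c` = multiplier of `L`: the form `(L x, y) - (x, L y)` is alternating with radical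
`W = ker (L ^ 2 - c)`, so `dim W` is odd, `c = b ^ 2`, `σ b = b` (otherwise `Z` interchanges the two eigenspaces), an
eigenspace `E` of `L` is nondegenerate and `Z`-invariant, Galois descent on `E`.
-/

set_option autoImplicit false

namespace Cfsg.Agent.H220.RC

open QuadraticMap Module
open Cfsg.Agent.LieClassical.OrthCore Cfsg.Agent.ClassicalGeometry.OrthSemi Cfsg.Agent.H93.RC

section core

variable {F V : Type*} [Field F] [AddCommGroup V] [Module F V]

/-- the eigenspace -/
def Eg (L : Module.End F V) (b : F) : Submodule F V := LinearMap.ker (L - b • (1 : Module.End F V))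

theorem mem_Eg {L : Module.End F V} {b : F} {x : V} : x ∈ Eg L b ↔ L x = b • x := by
  unfold Eg
  rw [LinearMap.mem_ker, LinearMap.sub_apply, sub_eq_zero]
  rfl

theorem exists_Q_ne {Q : QuadraticForm F V} {W : Submodule F V} {x : V} (hx : x ∈ W) (hx0 : x ≠ 0)
    (hW : ∀ x ∈ W, (∀ y ∈ W, polar Q x y = 0) → x = 0) : ∃ v ∈ W, Q v ≠ 0 := by
  by_contra hne
  push Not at hne
  refine hx0 (hW x hx fun y hy => ?_)
  rw [polar, hne _ (W.add_mem hx hy), hne x hx, hne y hy]
  simp

variable {Q : QuadraticForm F V}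

/-- an eigenspace of a similitude `L` with `L ^ m` scalar, `m ≠ 0` in `F`, is nondegenerate -/
theorem nondeg_Eg (hQ : Nondeg Q) {L : Module.End F V} {b : F} (hb : b ≠ 0) (hL : ∀ v, Q (L v) = b ^ 2 * Q v) {m : ℕ}
    (hm : (m : F) ≠ 0) {lam : F} (hLm : ∀ v, (L ^ m) v = lam • v) {x : V} (hx : x ∈ Eg L b)
    (h0 : ∀ y ∈ Eg L b, polar Q x y = 0) : x = 0 := by
  by_contra hx0
  set T : Module.End F V := b⁻¹ • L with hT
  have hTx : T x = x := by
    rw [hT, LinearMap.smul_apply, mem_Eg.1 hx, smul_smul, inv_mul_cancel₀ hb, one_smul]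
  have hTQ : ∀ v, Q (T v) = Q v := by
    intro v
    rw [hT, LinearMap.smul_apply, QuadraticMap.map_smul, hL, smul_eq_mul]
    field_simp
  have hTp : ∀ (i : ℕ) (u v : V), polar Q ((T ^ i) u) ((T ^ i) v) = polar Q u v := by
    intro i
    induction i with
    | zero => intro u v; simp
    | succ i ih =>
      intro u v
      rw [pow_succ', Module.End.mul_apply, Module.End.mul_apply, polar, ← map_add, hTQ, hTQ, hTQ]
      exact ih u v
  have hTm1 : ∃ mu : F, ∀ v, (T ^ m) v = mu • v := by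
    refine ⟨b⁻¹ ^ m * lam, fun v => ?_⟩
    rw [hT, smul_pow, LinearMap.smul_apply, hLm, smul_smul]
  obtain ⟨mu, hmu⟩ := hTm1
  have hTix : ∀ i : ℕ, (T ^ i) x = x := by
    intro i
    induction i with
    | zero => simp
    | succ i ih => rw [pow_succ', Module.End.mul_apply, ih, hTx]
  have hTm : ∀ v, (T ^ m) v = v := by
    have h1 : mu • x = x := by rw [← hmu, hTix]
    have h2 : (mu - 1) • x = 0 := by rw [sub_smul, h1, one_smul, sub_self]
    rcases smul_eq_zero.1 h2 with h | h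
    · intro v
      rw [hmu, sub_eq_zero.1 h, one_smul]
    · exact absurd h hx0
  apply hx0
  apply hQ
  intro y
  -- the projection of `y`
  have h1 : T (∑ i ∈ Finset.range m, (T ^ i) y) = ∑ i ∈ Finset.range m, (T ^ i) y := by
    rw [map_sum]
    have h2 := Finset.sum_range_succ' (fun i => (T ^ i) y) m
    rw [Finset.sum_range_succ, hTm, pow_zero, Module.End.one_apply] at h2
    rw [add_right_cancel h2]
    refine Finset.sum_congr rfl fun i _ => ?_
    rw [pow_succ']
    rfl
  have h2 : (∑ i ∈ Finset.range m, (T ^ i) y) ∈ Eg L b := by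
    rw [mem_Eg]
    have h3 := congrArg (fun w => b • w) h1
    simp only [hT, LinearMap.smul_apply, smul_smul, mul_inv_cancel₀ hb, one_smul] at h3
    rw [hT]
    exact h3
  have h3 := h0 _ h2
  have h4 : polar Q x (∑ i ∈ Finset.range m, (T ^ i) y) = ∑ i ∈ Finset.range m, polar Q x ((T ^ i) y) := by
    change polarBilin Q x _ = _
    rw [map_sum]
    rfl
  rw [h4] at h3
  have h5 : ∀ i ∈ Finset.range m, polar Q x ((T ^ i) y) = polar Q x y := by
    intro i _
    have := hTp i x y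
    rwa [hTix] at this
  rw [Finset.sum_congr rfl h5, Finset.sum_const, Finset.card_range, nsmul_eq_mul] at h3
  exact (mul_eq_zero.1 h3).resolve_left hm

variable [FiniteDimensional F V]

omit [FiniteDimensional F V] in
/-- a similitude is injective -/
theorem injective_of_sim (hQ : Nondeg Q) {c : F} (hc : c ≠ 0) (L : Module.End F V) (hL : ∀ v, Q (L v) = c * Q v) :
    Function.Injective L := by
  rw [← LinearMap.ker_eq_bot, LinearMap.ker_eq_bot']
  intro x hx
  apply hQ
  intro y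
  have h1 : polar Q (L x) (L y) = c * polar Q x y := by
    rw [polar, ← map_add, hL, hL, hL, polar]
    ring
  rw [hx, polar_zero_left] at h1
  exact (mul_eq_zero.1 h1.symm).resolve_left hc

/-- **Parity**: the multiplier `c` of a similitude `L` in odd dimension is a square, `c = b ^ 2`, and the sum of the
dimensions of the eigenspaces for `b` and `- b` is odd. -/
theorem parity (hQ : Nondeg Q) (h2 : (2 : F) ≠ 0) (hodd : Odd (finrank F V)) {c : F} (hc : c ≠ 0)
    (L : Module.End F V) (hL : ∀ v, Q (L v) = c * Q v) :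
    ∃ b : F, b ^ 2 = c ∧ Odd (finrank F (Eg L b) + finrank F (Eg L (-b))) := by
  have hLp : ∀ x y, polar Q (L x) (L y) = c * polar Q x y := by
    intro x y
    rw [polar, ← map_add, hL, hL, hL, polar]
    ring
  have hLinj : Function.Injective L := injective_of_sim hQ hc L hL
  have hLsurj : Function.Surjective L := LinearMap.surjective_of_injective hLinj
  -- the alternating form
  let ω : LinearMap.BilinForm F V := (polarBilin Q).compl₁₂ L LinearMap.id - (polarBilin Q).compl₁₂ LinearMap.id L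
  have hω : ∀ x y, ω x y = polar Q (L x) y - polar Q x (L y) := fun x y => rfl
  have hωalt : ω.IsAlt := by
    intro x
    rw [hω, polar_comm Q (L x) x, sub_self]
  set W : Submodule F V := LinearMap.ker ω with hWdef
  have hW : ∀ x, x ∈ W ↔ L (L x) = c • x := by
    intro x
    rw [hWdef, LinearMap.mem_ker]
    constructor
    · intro h
      rw [← sub_eq_zero]
      apply hQ
      intro z
      obtain ⟨y, rfl⟩ := hLsurj z
      have h1 : ω x y = 0 := by rw [h]; rfl
      rw [hω, sub_eq_zero] at h1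
      rw [polar_sub_left, polar_smul_left, hLp, h1, smul_eq_mul, sub_self]
    · intro h
      ext y
      rw [hω]
      have h1 := hLp (L x) y
      rw [h, polar_smul_left, smul_eq_mul] at h1
      have h3 := mul_left_cancel₀ hc h1
      rw [h3, sub_self]
      rfl
  obtain ⟨k, hk⟩ := ClassicalGeometry.TwoFamilies.exists_finrank_eq_ker_add ω hωalt
  have hWodd : Odd (finrank F W) := by
    rw [hk] at hodd
    have h1 : Even (k + k) := ⟨k, rfl⟩
    exact (Nat.odd_add.1 hodd).2 h1
  have hWL : ∀ x ∈ W, L x ∈ W := by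
    intro x hx
    rw [hW] at hx ⊢
    rw [hx, map_smul]
  -- `c` is a square
  obtain ⟨b, hb⟩ : ∃ b : F, b ^ 2 = c := by
    obtain ⟨j, hj⟩ := hWodd
    let LW : Module.End F W := L.restrict hWL
    have h1 : LW * LW = c • (1 : Module.End F W) := by
      ext x
      exact (hW x).1 x.2
    have h3 := congrArg LinearMap.det h1
    rw [map_mul, LinearMap.det_smul, hj, map_one, mul_one] at h3
    refine ⟨LinearMap.det LW * (c ^ j)⁻¹, ?_⟩
    have hcj : c ^ j ≠ 0 := pow_ne_zero j hc
    rw [mul_pow, _root_.sq (LinearMap.det LW), h3, inv_pow]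
    field_simp
    ring
  have hb0 : b ≠ 0 := by
    rintro rfl
    apply hc
    rw [← hb]
    ring
  -- the two eigenspaces
  have hEW : ∀ b' : F, b' ^ 2 = c → Eg L b' ≤ W := by
    intro b' hb' x hx
    rw [mem_Eg] at hx
    rw [hW, hx, map_smul, hx, smul_smul, ← _root_.sq, hb']
  have hnb : (-b) ^ 2 = c := by rw [neg_sq, hb]
  have hsup : Eg L b ⊔ Eg L (-b) = W := by
    refine le_antisymm (sup_le (hEW b hb) (hEW _ hnb)) fun x hx => ?_
    have hx' := (hW x).1 hx
    have h1 : (2 * b)⁻¹ • (L x + b • x) ∈ Eg L b := by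
      refine Submodule.smul_mem _ _ ?_
      rw [mem_Eg, map_add, map_smul, hx', ← hb, smul_add, smul_smul, _root_.sq, add_comm]
    have h3 : (2 * b)⁻¹ • (b • x - L x) ∈ Eg L (-b) := by
      refine Submodule.smul_mem _ _ ?_
      rw [mem_Eg, map_sub, map_smul, hx', ← hb, neg_smul, smul_sub, smul_smul, ← _root_.sq, neg_sub]
    have h4 : x = (2 * b)⁻¹ • (L x + b • x) + (2 * b)⁻¹ • (b • x - L x) := by
      rw [← smul_add, show L x + b • x + (b • x - L x) = b • x + b • x by abel, ← two_smul F, smul_smul, smul_smul]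
      rw [mul_assoc, inv_mul_cancel₀ (mul_ne_zero h2 hb0), one_smul]
    rw [h4]
    exact Submodule.add_mem_sup h1 h3
  have hinf : Eg L b ⊓ Eg L (-b) = ⊥ := by
    rw [Submodule.eq_bot_iff]
    rintro x ⟨h1, h3⟩
    rw [SetLike.mem_coe, mem_Eg] at h1 h3
    rw [h1, neg_smul] at h3
    have h4 : (2 * b) • x = 0 := by
      rw [mul_smul, two_smul]
      nth_rewrite 1 [h3]
      exact neg_add_cancel _
    exact (smul_eq_zero.1 h4).resolve_left (mul_ne_zero h2 hb0)
  have hdim : finrank F (Eg L b) + finrank F (Eg L (-b)) = finrank F W := by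
    have h1 := Submodule.finrank_sup_add_finrank_inf_eq (Eg L b) (Eg L (-b))
    rw [hinf, hsup, finrank_bot, add_zero] at h1
    exact h1.symm
  refine ⟨b, hb, ?_⟩
  rw [hdim]
  exact hWodd

variable [Finite F]

/-- the core: `Z` semilinear, `L` linear, commuting -/
theorem core (hQ : Nondeg Q) (h2 : (2 : F) ≠ 0) (hodd : Odd (finrank F V)) {σ : F ≃+* F} {e : F} {Z : Equiv.Perm V}
    (hZ : IsSS Q σ e Z) {d : F} (hZs : ∀ v, (Z : V → V)^[orderOf σ] v = d • v) {c : F} (hc : c ≠ 0)
    (L : Module.End F V) (hL : ∀ v, Q (L v) = c * Q v) {m : ℕ} (hm : (m : F) ≠ 0) {lam : F}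
    (hLm : ∀ v, (L ^ m) v = lam • v) (hcomm : ∀ v, Z (L v) = L (Z v)) :
    ∃ v, Q v ≠ 0 ∧ (∃ a : F, Z v = a • v) ∧ ∃ b : F, L v = b • v := by
  classical
  have hfinV : Finite V := Module.finite_of_finite F
  have hpos : 0 < finrank F V := hodd.pos
  have hnt : Nontrivial V := Module.nontrivial_of_finrank_pos hpos
  obtain ⟨w0, hw0⟩ := exists_ne (0 : V)
  obtain ⟨v0, -, hv0⟩ := exists_Q_ne (Q := Q) (W := ⊤) (Submodule.mem_top (x := w0)) hw0
    (fun x _ h => hQ x fun y => h y Submodule.mem_top)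
  -- `c` is fixed by `σ`
  have hσc : σ c = c := by
    have h1 := hZ.form (L v0)
    rw [hcomm, hL, hL, hZ.form, map_mul] at h1
    have h3 : (σ c - c) * (e * σ (Q v0)) = 0 := by linear_combination -h1
    rcases mul_eq_zero.1 h3 with h | h
    · exact sub_eq_zero.1 h
    · rcases mul_eq_zero.1 h with h | h
      · exact absurd h hZ.ne
      · exact absurd (by simpa using h) hv0
  obtain ⟨b, hb, hWodd⟩ := parity hQ h2 hodd hc L hL
  have hb0 : b ≠ 0 := by
    rintro rfl
    apply hc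
    rw [← hb]
    ring
  have hnb : (-b) ^ 2 = c := by rw [neg_sq, hb]
  -- `Z` on the eigenspaces
  have hZE : ∀ (b' : F) (x : V), x ∈ Eg L b' → Z x ∈ Eg L (σ b') := by
    intro b' x hx
    rw [mem_Eg] at hx ⊢
    rw [← hcomm, hx, hZ.smul]
  have hle : ∀ b' : F, finrank F (Eg L b') ≤ finrank F (Eg L (σ b')) := by
    intro b'
    have h1 : Nat.card (Eg L b') ≤ Nat.card (Eg L (σ b')) :=
      Nat.card_le_card_of_injective (fun x => (⟨Z x, hZE b' x x.2⟩ : Eg L (σ b'))) fun x y h =>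
        Subtype.ext (Z.injective (congrArg Subtype.val h))
    rw [Module.natCard_eq_pow_finrank (K := F) (V := Eg L b'),
      Module.natCard_eq_pow_finrank (K := F) (V := Eg L (σ b'))] at h1
    exact (Nat.pow_le_pow_iff_right Finite.one_lt_card).1 h1
  have hσb : σ b = b := by
    have h1 : σ b ^ 2 = b ^ 2 := by rw [← map_pow, hb, hσc]
    rcases sq_eq_sq_iff_eq_or_eq_neg.1 h1 with h | h
    · exact h
    · exfalso
      have h3 := hle b
      have h4 := hle (-b)
      rw [h] at h3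
      rw [map_neg, h, neg_neg] at h4
      have h5 : finrank F (Eg L b) = finrank F (Eg L (-b)) := le_antisymm h3 h4
      rw [h5] at hWodd
      exact (Nat.not_odd_iff_even.2 ⟨_, rfl⟩) hWodd
  -- a nonzero eigenspace
  obtain ⟨b', hb', hσb', x0, hx0, hx00⟩ : ∃ b' : F, b' ^ 2 = c ∧ σ b' = b' ∧ ∃ x ∈ Eg L b', x ≠ 0 := by
    by_cases h : Eg L b = ⊥
    · have h1 : Eg L (-b) ≠ ⊥ := by
        intro h'
        rw [h, h', finrank_bot] at hWodd
        exact absurd hWodd (by decide)
      obtain ⟨x, hx, hx0⟩ := Submodule.exists_mem_ne_zero_of_ne_bot h1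
      exact ⟨-b, hnb, by rw [map_neg, hσb], x, hx, hx0⟩
    · obtain ⟨x, hx, hx0⟩ := Submodule.exists_mem_ne_zero_of_ne_bot h
      exact ⟨b, hb, hσb, x, hx, hx0⟩
  have hb'0 : b' ≠ 0 := by
    rintro rfl
    apply hc
    rw [← hb']
    ring
  set E := Eg L b' with hE
  have hEnd : ∀ x ∈ E, (∀ y ∈ E, polar Q x y = 0) → x = 0 := fun x hx h0 =>
    nondeg_Eg hQ hb'0 (by rw [hb']; exact hL) hm hLm hx h0
  have hZE' : ∀ x ∈ E, Z x ∈ E := by
    intro x hx
    have := hZE b' x hx
    rwa [hσb'] at this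
  -- descent
  let f : E →+ E :=
    { toFun := fun x => ⟨Z x, hZE' x x.2⟩
      map_zero' := Subtype.ext hZ.map_zero
      map_add' := fun x y => Subtype.ext (hZ.add x y) }
  have hfinj : Function.Injective f := fun x y h => Subtype.ext (Z.injective (congrArg Subtype.val h))
  let g : E ≃+ E := AddEquiv.ofBijective f ⟨hfinj, Finite.surjective_of_injective hfinj⟩
  have hg : ∀ x : E, (g x : V) = Z x := fun x => rfl
  have hgi : ∀ (n : ℕ) (x : E), (((g : E → E)^[n] x : E) : V) = (Z : V → V)^[n] x := by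
    intro n
    induction n with
    | zero => intro x; rfl
    | succ n ih =>
      intro x
      rw [Function.iterate_succ_apply, ih, Function.iterate_succ_apply, hg]
  have hfinσ : Finite (F ≃+* F) := Finite.of_injective (fun e : F ≃+* F => (e : F → F)) DFunLike.coe_injective
  obtain ⟨a, ha, B, hB⟩ := Cfsg.Agent.H106.RC.descent (V := E) σ (orderOf σ) (orderOf_pos σ) rfl g
    (fun a x => Subtype.ext (hZ.smul a x)) d (fun x => Subtype.ext (by
      rw [hgi, hZs]
      rfl))
  have hB' : ∀ i, Z (B i) = a⁻¹ • (B i : V) := by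
    intro i
    have h1 : a • Z (B i) = (B i : V) := congrArg Subtype.val (hB i)
    rw [← h1, smul_smul, inv_mul_cancel₀ ha, one_smul, h1]
  have hLe : ∀ x : V, x ∈ E → L x = b' • x := fun x hx => mem_Eg.1 hx
  by_cases hall : ∃ i, Q (B i : V) ≠ 0
  · obtain ⟨i, hi⟩ := hall
    exact ⟨B i, hi, ⟨_, hB' i⟩, b', hLe _ (B i).2⟩
  · push Not at hall
    by_cases hall2 : ∃ i j, polar Q (B i : V) (B j : V) ≠ 0
    · obtain ⟨i, j, hij⟩ := hall2
      refine ⟨B i + B j, ?_, ⟨a⁻¹, ?_⟩, b', hLe _ (E.add_mem (B i).2 (B j).2)⟩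
      · have h1 : Q ((B i : V) + B j) = polar Q (B i : V) (B j) := by
          rw [QuadraticMap.map_add Q, hall, hall, zero_add, zero_add]
        rw [h1]
        exact hij
      · rw [hZ.add, hB', hB', smul_add]
    · exfalso
      push Not at hall2
      apply hx00
      have h1 : (polarBilin Q).compl₁₂ E.subtype E.subtype = 0 := by
        refine B.ext fun i => B.ext fun j => ?_
        exact hall2 i j
      refine hEnd x0 hx0 fun y hy => ?_
      have h3 := LinearMap.congr_fun (LinearMap.congr_fun h1 ⟨x0, hx0⟩) ⟨y, hy⟩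
      exact h3

end core

section grp

/-- a commuting family of elements with different prime exponents is contained in a cyclic group -/
theorem exists_gen {H ι : Type*} [Group H] (m : ι → H) (r : ι → ℕ) (hr : ∀ i, (r i).Prime)
    (hinj : Function.Injective r) (hpow : ∀ i, m i ^ r i = 1) (hc : ∀ i j, Commute (m i) (m j)) (s : Finset ι) :
    ∃ y : H, (∀ j, Commute y (m j)) ∧ y ^ (∏ i ∈ s, r i) = 1 ∧ ∀ i ∈ s, ∃ k : ℕ, m i = y ^ k := by
  classical
  induction s using Finset.induction_on with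
  | empty => exact ⟨1, fun j => Commute.one_left _, by simp, by simp⟩
  | insert a s ha ih =>
    obtain ⟨y, h1, h2, h3⟩ := ih
    have hcop : Nat.Coprime (∏ i ∈ s, r i) (r a) := by
      refine Nat.Coprime.prod_left fun i hi => ?_
      refine (Nat.coprime_primes (hr i) (hr a)).2 fun h => ?_
      rw [hinj h] at hi
      exact ha hi
    obtain ⟨k, hk1, hk2⟩ := Nat.chineseRemainder hcop 1 0
    obtain ⟨l, hl1, hl2⟩ := Nat.chineseRemainder hcop 0 1
    have hyk : (y * m a) ^ k = y := by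
      rw [(h1 a).mul_pow]
      have e1 : y ^ k = y ^ 1 := pow_eq_pow_iff_modEq.2 (hk1.of_dvd (orderOf_dvd_of_pow_eq_one h2))
      have e2 : m a ^ k = m a ^ 0 := pow_eq_pow_iff_modEq.2 (hk2.of_dvd (orderOf_dvd_of_pow_eq_one (hpow a)))
      rw [e1, e2, pow_one, pow_zero, mul_one]
    have hyl : (y * m a) ^ l = m a := by
      rw [(h1 a).mul_pow]
      have e1 : y ^ l = y ^ 0 := pow_eq_pow_iff_modEq.2 (hl1.of_dvd (orderOf_dvd_of_pow_eq_one h2))
      have e2 : m a ^ l = m a ^ 1 := pow_eq_pow_iff_modEq.2 (hl2.of_dvd (orderOf_dvd_of_pow_eq_one (hpow a)))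
      rw [e1, e2, pow_one, pow_zero, one_mul]
    refine ⟨y * m a, fun j => (h1 j).mul_left (hc a j), ?_, fun i hi => ?_⟩
    · rw [Finset.prod_insert ha, (h1 a).mul_pow, mul_comm (r a), pow_mul, h2, one_pow, one_mul, mul_comm, pow_mul,
        hpow, one_pow]
    · rcases Finset.mem_insert.1 hi with rfl | hi
      · exact ⟨l, hyl.symm⟩
      · obtain ⟨j, hj⟩ := h3 i hi
        exact ⟨k * j, by rw [pow_mul, hyk, hj]⟩

end grp

section scal

variable {F V : Type*} [Field F] [AddCommGroup V] [Module F V]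

/-- the scalars -/
def Sc (Q : QuadraticForm F V) : Subgroup (Gam Q) where
  carrier := {M | IsScal M}
  one_mem' := ⟨1, one_ne_zero, fun v => by rw [one_smul]; rfl⟩
  mul_mem' := by
    rintro A B ⟨a, ha, hA⟩ ⟨b, hb, hB⟩
    refine ⟨a * b, mul_ne_zero ha hb, fun v => ?_⟩
    change A.1 (B.1 v) = _
    rw [hB, hA, smul_smul]
  inv_mem' := by
    rintro A ⟨a, ha, hA⟩
    refine ⟨a⁻¹, inv_ne_zero ha, fun v => ?_⟩
    change A.1⁻¹ v = _
    have h1 : A.1 (a⁻¹ • v) = v := by rw [hA, smul_smul, mul_inv_cancel₀ ha, one_smul]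
    nth_rewrite 1 [← h1]
    rw [inv_apply]

theorem mem_Sc {Q : QuadraticForm F V} {M : Gam Q} : M ∈ Sc Q ↔ IsScal M := Iff.rfl

instance (Q : QuadraticForm F V) : (Sc Q).Normal where
  conj_mem := by
    rintro A ⟨a, ha, hA⟩ M
    obtain ⟨σ, c, hM⟩ := M.2
    refine ⟨σ a, by simpa using ha, fun v => ?_⟩
    change M.1 (A.1 (M.1⁻¹ v)) = _
    rw [hA, hM.smul, apply_inv]

theorem mk_eq {Q : QuadraticForm F V} {A B : Gam Q} :
    (QuotientGroup.mk A : Gam Q ⧸ Sc Q) = QuotientGroup.mk B ↔ ∃ a : F, a ≠ 0 ∧ ∀ v, B.1 v = a • A.1 v := by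
  rw [QuotientGroup.eq, mem_Sc]
  obtain ⟨σ, c, hA⟩ := A.2
  constructor
  · rintro ⟨a, ha, h⟩
    refine ⟨σ a, by simpa using ha, fun v => ?_⟩
    have h1 : A.1⁻¹ (B.1 v) = a • v := h v
    rw [← hA.smul, ← h1, apply_inv]
  · rintro ⟨a, ha, h⟩
    refine ⟨σ.symm a, by simpa using ha, fun v => ?_⟩
    change A.1⁻¹ (B.1 v) = _
    rw [h, ← inv_apply A.1 (σ.symm a • v), hA.smul, RingEquiv.apply_symm_apply]

/-- powers of a semisimilitude -/
theorem pow_SS {Q : QuadraticForm F V} {σ : F ≃+* F} {c : F} {Y : Gam Q} (hY : IsSS Q σ c Y.1) (k : ℕ) :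
    ∃ d : F, IsSS Q (σ ^ k) d (Y ^ k).1 := by
  induction k with
  | zero => exact ⟨1, one_ne_zero, fun _ _ => rfl, fun _ _ => rfl, fun _ => by rw [one_mul]; rfl⟩
  | succ k ih =>
    obtain ⟨d, hd⟩ := ih
    refine ⟨d * (σ ^ k) c, ?_⟩
    rw [pow_succ, pow_succ]
    exact hd.mul hY

/-- a scalar semisimilitude has no field automorphism -/
theorem eq_one_of_scal {Q : QuadraticForm F V} {σ : F ≃+* F} {c : F} {Y : Gam Q} (hY : IsSS Q σ c Y.1)
    (h : IsScal Y) {v : V} (hv : v ≠ 0) : σ = 1 := by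
  obtain ⟨d, hd, h⟩ := h
  ext a
  have h1 := hY.smul a v
  rw [h, h, smul_smul, smul_smul] at h1
  have h2 : (d * a - σ a * d) • v = 0 := by rw [sub_smul, h1, sub_self]
  have h3 := (smul_eq_zero.1 h2).resolve_right hv
  have h4 : d * (a - σ a) = 0 := by linear_combination h3
  have h5 := (mul_eq_zero.1 h4).resolve_left hd
  exact (sub_eq_zero.1 h5).symm

variable [Finite F] [FiniteDimensional F V] {Q : QuadraticForm F V}

/-- one semisimilitude -/
theorem exists_eig (hQ : Nondeg Q) (h2 : (2 : F) ≠ 0) (hodd : Odd (finrank F V)) {Y : Gam Q} {σ : F ≃+* F} {c : F}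
    (hY : IsSS Q σ c Y.1) {m : ℕ} (hcop : Nat.Coprime (orderOf σ) m) (hm : (m : F) ≠ 0)
    (hYm : IsScal (Y ^ (orderOf σ * m))) : ∃ v, Q v ≠ 0 ∧ ∃ a : F, Y.1 v = a • v := by
  obtain ⟨k, hk1, hk2⟩ := Nat.chineseRemainder hcop 1 0
  obtain ⟨l, hl1, hl2⟩ := Nat.chineseRemainder hcop 0 1
  obtain ⟨e, he⟩ := pow_SS hY k
  obtain ⟨c', hc'⟩ := pow_SS hY l
  have hσk : σ ^ k = σ := by
    have : σ ^ k = σ ^ 1 := pow_eq_pow_iff_modEq.2 hk1
    rwa [pow_one] at this
  have hσl : σ ^ l = 1 := by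
    have : σ ^ l = σ ^ 0 := pow_eq_pow_iff_modEq.2 hl1
    rwa [pow_zero] at this
  rw [hσk] at he
  rw [hσl] at hc'
  have hscal : ∀ n : ℕ, orderOf σ * m ∣ n → IsScal (Y ^ n) := by
    rintro _ ⟨t, rfl⟩
    rw [pow_mul]
    exact (Sc Q).pow_mem hYm t
  obtain ⟨d, hd, hZs⟩ := hscal (k * orderOf σ) (by
    rw [mul_comm]
    exact Nat.mul_dvd_mul ((Nat.modEq_zero_iff_dvd).1 hk2) dvd_rfl)
  obtain ⟨lam, hlam, hLm⟩ := hscal (l * m) (Nat.mul_dvd_mul ((Nat.modEq_zero_iff_dvd).1 hl1) dvd_rfl)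
  let L : Module.End F V :=
    { toFun := (Y ^ l).1
      map_add' := hc'.add
      map_smul' := fun a v => by
        rw [hc'.smul]
        rfl }
  have hLi : ∀ (n : ℕ) (v : V), (L ^ n) v = (Y ^ (l * n)).1 v := by
    intro n
    induction n with
    | zero => intro v; rw [mul_zero, pow_zero, pow_zero]; rfl
    | succ n ih =>
      intro v
      rw [pow_succ, Module.End.mul_apply, ih, mul_add, pow_add, mul_one]
      rfl
  obtain ⟨v, hv, ⟨a, hZv⟩, b, hLv⟩ := core hQ h2 hodd he (d := d) (fun v => by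
    rw [Equiv.Perm.iterate_eq_pow, ← hZs v, pow_mul]
    rfl) hc'.ne L (fun v => hc'.form v) hm (lam := lam) (fun v => by rw [hLi, hLm]) (fun v => by
      change (Y ^ k * Y ^ l).1 v = (Y ^ l * Y ^ k).1 v
      rw [← pow_add, ← pow_add, add_comm])
  refine ⟨v, hv, ?_⟩
  have h3 : (QuotientGroup.mk (Y ^ (k + l)) : Gam Q ⧸ Sc Q) = QuotientGroup.mk Y := by
    rw [QuotientGroup.mk_pow]
    have h4 : (QuotientGroup.mk Y : Gam Q ⧸ Sc Q) ^ (orderOf σ * m) = 1 := by
      rw [← QuotientGroup.mk_pow, QuotientGroup.eq_one_iff]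
      exact hYm
    have h5 : k + l ≡ 1 [MOD orderOf σ * m] := by
      refine (Nat.modEq_and_modEq_iff_modEq_mul hcop).1 ⟨?_, ?_⟩
      · exact hk1.add hl1
      · exact hk2.add hl2
    have h6 : (QuotientGroup.mk Y : Gam Q ⧸ Sc Q) ^ (k + l) = QuotientGroup.mk Y ^ 1 :=
      pow_eq_pow_iff_modEq.2 (h5.of_dvd (orderOf_dvd_of_pow_eq_one h4))
    rw [h6, pow_one]
  obtain ⟨f, -, hf⟩ := mk_eq.1 h3
  refine ⟨f * (σ b * a), ?_⟩
  have h7 : (Y ^ (k + l)).1 v = (σ b * a) • v := by
    rw [pow_add]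
    change (Y ^ k).1 (L v) = _
    rw [hLv, he.smul, hZv, smul_smul]
  rw [hf, h7, smul_smul]

/-- The semilinear form of BOX F4: a common nonsingular eigenvector of a family of semisimilitudes which commute up to
scalars, with different prime orders modulo scalars, no linear `p`-element. -/
theorem box_eig_semi (hQ : Nondeg Q) {p : ℕ} [CharP F p] (hp2 : p ≠ 2)
    (hodd : Odd (Module.finrank F V)) {ι : Type*} [Finite ι] (M : ι → Gam Q) (r : ι → ℕ)
    (hr : ∀ i, (r i).Prime) (hinj : Function.Injective r) (hpow : ∀ i, IsScal (M i ^ r i))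
    (hc : ∀ i j, ∃ a : F, a ≠ 0 ∧ ∀ v, (M i).1 ((M j).1 v) = a • (M j).1 ((M i).1 v))
    (hp : ∀ i, IsLin (M i) → r i ≠ p) :
    ∃ v : V, Q v ≠ 0 ∧ ∀ i, ∃ a : F, (M i).1 v = a • v := by
  classical
  have := Fintype.ofFinite ι
  have hpp : p.Prime := (CharP.char_is_prime_or_zero F p).resolve_right fun h => by
    subst h
    have := CharP.charP_to_charZero F
    exact not_finite F
  have h2 : (2 : F) ≠ 0 := by
    intro h
    have h1 : ((2 : ℕ) : F) = 0 := by exact_mod_cast h
    rw [CharP.cast_eq_zero_iff F p] at h1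
    exact hp2 ((Nat.prime_dvd_prime_iff_eq hpp Nat.prime_two).1 h1)
  have hnt : Nontrivial V := Module.nontrivial_of_finrank_pos hodd.pos
  obtain ⟨v0, hv0⟩ := exists_ne (0 : V)
  obtain ⟨y, -, hy, hyM⟩ := exists_gen (fun i => (QuotientGroup.mk (M i) : Gam Q ⧸ Sc Q)) r hr hinj (fun i => by
    rw [← QuotientGroup.mk_pow, QuotientGroup.eq_one_iff]
    exact hpow i) (fun i j => by
      change QuotientGroup.mk (M i * M j) = QuotientGroup.mk (M j * M i)
      exact mk_eq.2 (hc j i)) Finset.univ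
  obtain ⟨Y, rfl⟩ := QuotientGroup.mk_surjective y
  obtain ⟨σ, c, hY⟩ := Y.2
  have hfinσ : Finite (F ≃+* F) := Finite.of_injective (fun e : F ≃+* F => (e : F → F)) DFunLike.coe_injective
  have hYR : IsScal (Y ^ ∏ i, r i) := by
    rw [← QuotientGroup.mk_pow, QuotientGroup.eq_one_iff] at hy
    exact hy
  have hdvd : orderOf σ ∣ ∏ i, r i := by
    obtain ⟨d, hd⟩ := pow_SS hY (∏ i, r i)
    exact orderOf_dvd_of_pow_eq_one (eq_one_of_scal hd hYR hv0)
  obtain ⟨m, hm⟩ := hdvd
  have hsq : Squarefree (∏ i, r i) := by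
    refine Finset.squarefree_prod_of_pairwise_isCoprime ?_ fun i _ => (hr i).prime.squarefree
    intro i _ j _ hij
    exact Nat.coprime_iff_isRelPrime.1 ((Nat.coprime_primes (hr i) (hr j)).2 fun h => hij (hinj h))
  have hcop : Nat.Coprime (orderOf σ) m := by
    rw [hm] at hsq
    exact (Nat.squarefree_mul_iff.1 hsq).1
  have hmF : (m : F) ≠ 0 := by
    intro h
    rw [CharP.cast_eq_zero_iff F p] at h
    have h1 : p ∣ ∏ i, r i := by
      rw [hm]
      exact h.mul_left _
    obtain ⟨i, -, hi⟩ := (hpp.prime.dvd_finsetProd_iff _).1 h1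
    have hi' : r i = p := ((Nat.prime_dvd_prime_iff_eq hpp (hr i)).1 hi).symm
    obtain ⟨k, hk⟩ := hyM i (Finset.mem_univ i)
    rw [← QuotientGroup.mk_pow] at hk
    obtain ⟨d, hd⟩ := pow_SS hY k
    have h3 : σ ^ k ≠ 1 := by
      intro h3
      refine hp i ?_ hi'
      obtain ⟨b, hb, hb'⟩ := mk_eq.1 hk.symm
      intro a v
      rw [hb', hb', hd.smul, h3, smul_comm]
      rfl
    have h4 : (σ ^ k) ^ p = 1 := by
      rw [← pow_mul]
      obtain ⟨d, hd⟩ := pow_SS hY (k * p)
      refine eq_one_of_scal hd ?_ hv0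
      have h5 : (QuotientGroup.mk (Y ^ (k * p)) : Gam Q ⧸ Sc Q) = 1 := by
        rw [pow_mul, QuotientGroup.mk_pow, ← hk, ← QuotientGroup.mk_pow, QuotientGroup.eq_one_iff, ← hi']
        exact hpow i
      rw [QuotientGroup.eq_one_iff] at h5
      exact h5
    have := Fact.mk hpp
    have h5 : orderOf (σ ^ k) = p := orderOf_eq_prime h4 h3
    have h6 : p ∣ orderOf σ := by
      rw [← h5]
      exact orderOf_pow_dvd k
    have h7 := Nat.dvd_gcd h6 h
    rw [hcop] at h7
    exact hpp.one_lt.ne' (Nat.dvd_one.1 h7)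
  obtain ⟨v, hv, a, ha⟩ := exists_eig hQ h2 hodd hY hcop hmF (by rw [← hm]; exact hYR)
  refine ⟨v, hv, fun i => ?_⟩
  obtain ⟨k, hk⟩ := hyM i (Finset.mem_univ i)
  rw [← QuotientGroup.mk_pow] at hk
  obtain ⟨b, -, hb⟩ := mk_eq.1 hk.symm
  have h1 : ∀ n : ℕ, ∃ t : F, (Y ^ n).1 v = t • v := by
    intro n
    induction n with
    | zero => exact ⟨1, by rw [one_smul]; rfl⟩
    | succ n ih =>
      obtain ⟨t, ht⟩ := ih
      refine ⟨σ t * a, ?_⟩
      rw [pow_succ']
      change Y.1 ((Y ^ n).1 v) = _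
      rw [ht, hY.smul, ha, smul_smul]
  obtain ⟨t, ht⟩ := h1 k
  exact ⟨b * t, by rw [hb, ht, smul_smul]⟩

end scal

section family

universe v

theorem two_ne {F : Type*} [Field F] [Finite F] {p : ℕ} [CharP F p] (hp2 : p ≠ 2) : (2 : F) ≠ 0 := by
  have hpp : p.Prime := (CharP.char_is_prime_or_zero F p).resolve_right fun h => by
    subst h
    have := CharP.charP_to_charZero F
    exact not_finite F
  intro h
  have h1 : ((2 : ℕ) : F) = 0 := by exact_mod_cast h
  rw [CharP.cast_eq_zero_iff F p] at h1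
  exact hp2 ((Nat.prime_dvd_prime_iff_eq hpp Nat.prime_two).1 h1)

theorem cast_ne {F : Type*} [Field F] [Finite F] {p : ℕ} [CharP F p] {r : ℕ} (hr : r.Prime) (hrp : r ≠ p) :
    (r : F) ≠ 0 := by
  have hpp : p.Prime := (CharP.char_is_prime_or_zero F p).resolve_right fun h => by
    subst h
    have := CharP.charP_to_charZero F
    exact not_finite F
  intro h
  rw [CharP.cast_eq_zero_iff F p] at h
  exact hrp ((Nat.prime_dvd_prime_iff_eq hpp hr).1 h).symm

variable {F : Type*} [Field F]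

/-- one isometry -/
theorem exists_odd_Eg {V : Type*} [AddCommGroup V] [Module F V] [FiniteDimensional F V] {Q : QuadraticForm F V}
    (hQ : Nondeg Q) (h2 : (2 : F) ≠ 0) (hodd : Odd (finrank F V)) (T : Module.End F V) (hT : ∀ v, Q (T v) = Q v)
    {m : ℕ} (hm : (m : F) ≠ 0) (hTm : T ^ m = 1) :
    ∃ b : F, (b = 1 ∨ b = -1) ∧ Odd (finrank F (Eg T b)) ∧
      ∀ x ∈ Eg T b, (∀ y ∈ Eg T b, polar Q x y = 0) → x = 0 := by
  have hnd : ∀ b : F, b = 1 ∨ b = -1 → ∀ x ∈ Eg T b, (∀ y ∈ Eg T b, polar Q x y = 0) → x = 0 := by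
    intro b hb x hx h0
    have hb0 : b ≠ 0 := by
      rcases hb with rfl | rfl
      · exact one_ne_zero
      · exact neg_ne_zero.2 one_ne_zero
    have hb2 : b ^ 2 = 1 := by
      rcases hb with rfl | rfl <;> ring
    exact nondeg_Eg (lam := 1) hQ hb0 (fun v => by rw [hb2, one_mul, hT]) hm
      (fun v => by rw [hTm, one_smul]; rfl) hx h0
  obtain ⟨b, hb, hbo⟩ := parity hQ h2 hodd (c := 1) one_ne_zero T (fun v => by rw [hT, one_mul])
  have hb1 : b = 1 ∨ b = -1 := sq_eq_one_iff.1 hb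
  have hbn : -b = 1 ∨ -b = -1 := by
    rcases hb1 with rfl | rfl
    · exact Or.inr rfl
    · exact Or.inl (neg_neg _)
  rcases Nat.even_or_odd (finrank F (Eg T b)) with h | h
  · exact ⟨-b, hbn, (Nat.odd_add'.1 hbo).2 h, hnd _ hbn⟩
  · exact ⟨b, hb1, h, hnd _ hb1⟩

/-- a commuting family of isometries -/
theorem exists_family (h2 : (2 : F) ≠ 0) {ι : Type*} (s : Finset ι) : ∀ {V : Type v} [AddCommGroup V] [Module F V]
    [FiniteDimensional F V] {Q : QuadraticForm F V} (_ : Nondeg Q) (_ : Odd (finrank F V)) (X : ι → Module.End F V)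
    (m : ι → ℕ) (_ : ∀ i v, Q (X i v) = Q v) (_ : ∀ i, (m i : F) ≠ 0) (_ : ∀ i, X i ^ m i = 1)
    (_ : ∀ i j, X i * X j = X j * X i), ∃ v : V, Q v ≠ 0 ∧ ∀ i ∈ s, X i v = v ∨ X i v = -v := by
  classical
  induction s using Finset.induction_on with
  | empty =>
    intro V _ _ _ Q hQ hodd X m _ _ _ _
    have hnt : Nontrivial V := Module.nontrivial_of_finrank_pos hodd.pos
    obtain ⟨w0, hw0⟩ := exists_ne (0 : V)
    obtain ⟨v0, -, hv0⟩ := exists_Q_ne (Q := Q) (W := ⊤) (Submodule.mem_top (x := w0)) hw0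
      (fun x _ h => hQ x fun y => h y Submodule.mem_top)
    exact ⟨v0, hv0, by simp⟩
  | insert a s _ ih =>
    intro V _ _ _ Q hQ hodd X m hX hm hpow hc
    obtain ⟨b, hb, hbo, hnd⟩ := exists_odd_Eg hQ h2 hodd (X a) (hX a) (hm a) (hpow a)
    have hinv : ∀ i, ∀ x ∈ Eg (X a) b, X i x ∈ Eg (X a) b := by
      intro i x hx
      rw [mem_Eg] at hx ⊢
      have h1 : X a (X i x) = X i (X a x) := LinearMap.congr_fun (hc a i) x
      rw [h1, hx, map_smul]
    have hpi : ∀ (i : ι) (n : ℕ) (x : Eg (X a) b), ((((X i).restrict (hinv i)) ^ n) x : V) = (X i ^ n) x := by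
      intro i n
      induction n with
      | zero => intro x; rfl
      | succ n ihn =>
        intro x
        rw [pow_succ, pow_succ, Module.End.mul_apply, ihn]
        rfl
    obtain ⟨v, hv, hvs⟩ := ih (V := Eg (X a) b) (Q := Q.comp (Eg (X a) b).subtype)
      (fun x h => Subtype.ext (hnd x x.2 fun y hy => h ⟨y, hy⟩)) hbo (fun i => (X i).restrict (hinv i)) m
      (fun i v => hX i v) hm (fun i => LinearMap.ext fun x => Subtype.ext (by rw [hpi, hpow]; rfl))
      (fun i j => LinearMap.ext fun x => Subtype.ext (LinearMap.congr_fun (hc i j) x))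
    refine ⟨v, hv, fun i hi => ?_⟩
    rcases Finset.mem_insert.1 hi with rfl | hi
    · have h1 := mem_Eg.1 v.2
      rcases hb with rfl | rfl
      · left
        rwa [one_smul] at h1
      · right
        rwa [neg_one_smul] at h1
    · rcases hvs i hi with h | h
      · exact Or.inl (congrArg Subtype.val h)
      · exact Or.inr (congrArg Subtype.val h)

/-- **BOX F4** (odd dimension): a common nonsingular eigenvector. No distinctness of the `r i`. -/
theorem box_eig {F V : Type*} [Field F] [Finite F] [AddCommGroup V] [Module F V]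
    [FiniteDimensional F V] {Q : QuadraticForm F V} (hQ : Nondeg Q) {p : ℕ} [CharP F p] (hp2 : p ≠ 2)
    (hodd : Odd (Module.finrank F V)) {ι : Type*} [Finite ι] (X : ι → V ≃ₗ[F] V) (r : ι → ℕ)
    (hO : ∀ i, X i ∈ O Q) (hr : ∀ i, (r i).Prime) (hrp : ∀ i, r i ≠ p) (hpow : ∀ i, X i ^ r i = 1)
    (hc : ∀ i j, X i * X j = X j * X i) :
    ∃ v : V, Q v ≠ 0 ∧ ∀ i, X i v = v ∨ X i v = -v := by
  have := Fintype.ofFinite ι
  have hpi : ∀ (i : ι) (n : ℕ) (x : V), (((X i : V →ₗ[F] V) : Module.End F V) ^ n) x = (X i ^ n) x := by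
    intro i n
    induction n with
    | zero => intro x; rfl
    | succ n ihn =>
      intro x
      rw [pow_succ, pow_succ, Module.End.mul_apply, ihn]
      rfl
  obtain ⟨v, hv, h⟩ := exists_family (two_ne (F := F) hp2) (Finset.univ : Finset ι) hQ hodd
    (fun i => ((X i : V →ₗ[F] V) : Module.End F V)) r (fun i v => hO i v) (fun i => cast_ne (hr i) (hrp i))
    (fun i => LinearMap.ext fun x => by rw [hpi, hpow]; rfl)
    (fun i j => LinearMap.ext fun x => LinearEquiv.congr_fun (hc i j) x)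
  exact ⟨v, hv, fun i => h i (Finset.mem_univ i)⟩

/-- **BOX F6** (odd dimension): a linear lift is a scalar times an isometry of the right order. -/
theorem box_norm {F V : Type*} [Field F] [Finite F] [AddCommGroup V] [Module F V]
    [FiniteDimensional F V] {Q : QuadraticForm F V} (hQ : Nondeg Q) {p : ℕ} [CharP F p] (hp2 : p ≠ 2)
    (hodd : Odd (Module.finrank F V)) (M : Gam Q) (hM : IsLin M) {r : ℕ} (hr : r.Prime)
    (hpow : IsScal (M ^ r)) :
    ∃ (T : V ≃ₗ[F] V) (a : F), T ∈ O Q ∧ T ^ r = 1 ∧ a ≠ 0 ∧ ∀ v, M.1 v = a • T v := by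
  have h2 : (2 : F) ≠ 0 := two_ne hp2
  have hnt : Nontrivial V := Module.nontrivial_of_finrank_pos hodd.pos
  obtain ⟨w0, hw0⟩ := exists_ne (0 : V)
  obtain ⟨v0, -, hv0⟩ := exists_Q_ne (Q := Q) (W := ⊤) (Submodule.mem_top (x := w0)) hw0
    (fun x _ h => hQ x fun y => h y Submodule.mem_top)
  obtain ⟨σ, c, hσ⟩ := M.2
  have hσ1 : σ = 1 := by
    ext a
    have h1 := hM a w0
    rw [hσ.smul] at h1
    have h3 : M.1 w0 ≠ 0 := fun h => hw0 (M.1.injective (h.trans hσ.map_zero.symm))
    have h4 : (σ a - a) • M.1 w0 = 0 := by rw [sub_smul, h1, sub_self]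
    exact sub_eq_zero.1 ((smul_eq_zero.1 h4).resolve_right h3)
  subst hσ1
  let L : V ≃ₗ[F] V := LinearEquiv.ofBijective
    { toFun := M.1
      map_add' := hσ.add
      map_smul' := fun a v => hσ.smul a v } M.1.bijective
  have hL : ∀ v, L v = M.1 v := fun v => rfl
  have hLQ : ∀ v, Q (L v) = c * Q v := fun v => hσ.form v
  obtain ⟨b, hb, -⟩ := parity hQ h2 hodd hσ.ne (L : V →ₗ[F] V) hLQ
  have hb0 : b ≠ 0 := by
    rintro rfl
    apply hσ.ne
    rw [← hb]
    ring
  -- an isometry which is a multiple of `L`, and its power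
  have key : ∀ d : F, (hd : d ≠ 0) → d ^ 2 = c →
      ∃ T : V ≃ₗ[F] V, T ∈ O Q ∧ (∀ v, L v = d • T v) ∧ ∀ n v, (L ^ n) v = d ^ n • (T ^ n) v := by
    intro d hd hdc
    let T : V ≃ₗ[F] V := L.trans (LinearEquiv.smulOfNeZero F V d⁻¹ (inv_ne_zero hd))
    have hT : ∀ v, T v = d⁻¹ • L v := fun v => rfl
    have hT' : ∀ v, L v = d • T v := fun v => by rw [hT, smul_smul, mul_inv_cancel₀ hd, one_smul]
    refine ⟨T, fun v => ?_, hT', ?_⟩
    · rw [hT, QuadraticMap.map_smul, hLQ, ← hdc, smul_eq_mul]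
      field_simp
    · intro n
      induction n with
      | zero => intro v; rw [pow_zero, pow_zero, one_smul]; rfl
      | succ n ih =>
        intro v
        rw [pow_succ, pow_succ (T : V ≃ₗ[F] V), LinearEquiv.mul_apply, ih, hT', map_smul, smul_smul, ← pow_succ]
        rfl
  have hLr : ∃ lam : F, ∀ v, (L ^ r) v = lam • v := by
    obtain ⟨lam, -, hlam⟩ := hpow
    refine ⟨lam, fun v => ?_⟩
    rw [← hlam]
    have h1 : ∀ (n : ℕ) (v : V), (L ^ n) v = (M ^ n).1 v := by
      intro n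
      induction n with
      | zero => intro v; rfl
      | succ n ih =>
        intro v
        rw [pow_succ, pow_succ, LinearEquiv.mul_apply, ih]
        rfl
    exact h1 r v
  obtain ⟨lam, hlam⟩ := hLr
  -- `T ^ r = ± 1`
  have hpm : ∀ T : V ≃ₗ[F] V, T ∈ O Q → ∀ mu : F, (∀ v, (T ^ r) v = mu • v) → mu = 1 ∨ mu = -1 := by
    intro T hT mu hmu
    have h1 : T ^ r ∈ O Q := (O Q).pow_mem hT r
    have h3 := h1 v0
    rw [hmu, QuadraticMap.map_smul, smul_eq_mul] at h3
    have h4 : (mu * mu - 1) * Q v0 = 0 := by rw [sub_mul, h3, one_mul, sub_self]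
    have h5 : mu ^ 2 = 1 := by
      rw [_root_.sq]
      exact sub_eq_zero.1 ((mul_eq_zero.1 h4).resolve_right hv0)
    exact sq_eq_one_iff.1 h5
  obtain ⟨T, hT1, hT2, hT3⟩ := key b hb0 hb
  have hTr : ∀ v, (T ^ r) v = (lam * (b ^ r)⁻¹) • v := by
    intro v
    have h1 := hT3 r v
    rw [hlam] at h1
    rw [mul_comm, mul_smul, h1, smul_smul, inv_mul_cancel₀ (pow_ne_zero _ hb0), one_smul]
  rcases hpm T hT1 _ hTr with h | h
  · refine ⟨T, b, hT1, LinearEquiv.ext fun v => ?_, hb0, fun v => hT2 v⟩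
    rw [hTr, h, one_smul]
    rfl
  · rcases hr.eq_two_or_odd' with rfl | hro
    · -- `T ^ 2 = -1` is impossible
      exfalso
      obtain ⟨d, hd, hdo⟩ := parity hQ h2 hodd (c := 1) one_ne_zero (T : V →ₗ[F] V) (fun v => by
        rw [one_mul]
        exact hT1 v)
      have hd0 : ∀ d : F, d ^ 2 = 1 → Eg (T : V →ₗ[F] V) d = ⊥ := by
        intro d hd
        rw [Submodule.eq_bot_iff]
        intro x hx
        have h3 : T x = d • x := mem_Eg.1 hx
        have h4 : (T ^ 2) x = x := by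
          rw [pow_two, LinearEquiv.mul_apply, h3, map_smul, h3, smul_smul, ← _root_.sq, hd, one_smul]
        rw [hTr, h] at h4
        have h5 : (2 : F) • x = 0 := by
          rw [two_smul]
          nth_rewrite 1 [← h4]
          rw [neg_smul, one_smul, neg_add_cancel]
        exact (smul_eq_zero.1 h5).resolve_left h2
      rw [hd0 d hd, hd0 (-d) (by rw [neg_sq, hd]), finrank_bot] at hdo
      exact absurd hdo (by decide)
    · obtain ⟨T', hT1', hT2', hT3'⟩ := key (-b) (neg_ne_zero.2 hb0) (by rw [neg_sq, hb])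
      refine ⟨T', -b, hT1', LinearEquiv.ext fun v => ?_, neg_ne_zero.2 hb0, fun v => hT2' v⟩
      have h1 := hT3' r v
      rw [hlam, hro.neg_pow] at h1
      have h3 : lam = -(b ^ r) := by
        have := congrArg (fun t => t * b ^ r) h
        beta_reduce at this
        rw [mul_assoc, inv_mul_cancel₀ (pow_ne_zero _ hb0), mul_one] at this
        rw [this]
        ring
      rw [h3] at h1
      have h4 := smul_right_injective V (neg_ne_zero.2 (pow_ne_zero r hb0)) h1
      exact h4.symm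

end family

end Cfsg.Agent.H220.RC
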